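import Cfsg.Agent.H744.Pu4.Opp
import Cfsg.Agent.S0806

/-!
# S5719, `PSU₄(q)`: the Levi subgroup `SL₂(q²)` of the stabilizer of two opposite totally isotropic planes
(helper744 for helper838)

* `Fr B u f` : `u 0, u 1` and `f 0, f 1` are dual bases of totally isotropic planes;
* `lev h : SL(2, F) →* GL(V)` : `M` on `<u>`, `M⁻¹ᵀ` (twisted by `σ`) on `<f>`.
-/

set_option autoImplicit false
set_option linter.unusedSectionVars false
set_option linter.unusedVariables false

namespace Cfsg.Agent.H744.Pu4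

open Module Subgroup Cfsg Cfsg.Agent.H91.U Cfsg.Agent.H450.UF Cfsg.Agent.H450.Bs Cfsg.Agent.H209.Fxy Cfsg.Agent.H838.IF

variable {F V : Type*} [Field F] [Fintype F] [AddCommGroup V] [Module F V] [FiniteDimensional F V] {σ : F →+* F}
  {B : V →ₛₗ[σ] V →ₗ[F] F} {H : Subgroup (V ≃ₗ[F] V)} {q : ℕ}

variable (B) in
/-- dual bases of two totally isotropic planes -/
structure Fr (u f : Fin 2 → V) : Prop where
  uu : ∀ i j, B (u i) (u j) = 0
  ff : ∀ i j, B (f i) (f j) = 0
  uf : ∀ i j, B (u i) (f j) = if i = j then 1 else 0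

variable {u f : Fin 2 → V}

theorem Fr.fu (h : Fr B u f) (hB : HForm B) (i j : Fin 2) : B (f i) (u j) = if i = j then 1 else 0 := by
  rw [sw hB (u j) (f i), h.uf]
  by_cases e : i = j
  · rw [if_pos e, if_pos e.symm, map_one]
  · rw [if_neg e, if_neg (fun e' => e e'.symm), map_zero]

theorem Fr.li (h : Fr B u f) (hB : HForm B) : LinearIndependent F (Sum.elim u f) := by
  rw [Fintype.linearIndependent_iff]
  intro c hc
  rw [Fintype.sum_sum_type] at hc
  simp only [Sum.elim_inl, Sum.elim_inr] at hc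
  rintro (i | i)
  · have h1 := congrArg (B (f i)) hc
    rw [map_add, map_sum, map_sum, map_zero] at h1
    simp only [smul_right, h.fu hB, h.ff, mul_zero, Finset.sum_const_zero, add_zero, mul_ite, mul_one,
      Finset.sum_ite_eq, Finset.mem_univ, if_true] at h1
    exact h1
  · have h1 := congrArg (B (u i)) hc
    rw [map_add, map_sum, map_sum, map_zero] at h1
    simp only [smul_right, h.uf, h.uu, mul_zero, Finset.sum_const_zero, zero_add, mul_ite, mul_one,
      Finset.sum_ite_eq, Finset.mem_univ, if_true] at h1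
    exact h1

/-- the basis -/
noncomputable def Fr.b (h : Fr B u f) (hB : HForm B) (hV : finrank F V = 4) : Basis (Fin 2 ⊕ Fin 2) F V :=
  basisOfLinearIndependentOfCardEqFinrank (h.li hB) (by rw [hV]; rfl)

theorem Fr.b_inl (h : Fr B u f) (hB : HForm B) (hV : finrank F V = 4) (i : Fin 2) : h.b hB hV (Sum.inl i) = u i := by
  rw [Fr.b, coe_basisOfLinearIndependentOfCardEqFinrank]
  rfl

theorem Fr.b_inr (h : Fr B u f) (hB : HForm B) (hV : finrank F V = 4) (i : Fin 2) : h.b hB hV (Sum.inr i) = f i := by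
  rw [Fr.b, coe_basisOfLinearIndependentOfCardEqFinrank]
  rfl

/-- two linear maps which agree on the frame are equal -/
theorem Fr.ext (h : Fr B u f) (hB : HForm B) (hV : finrank F V = 4) {g g' : V →ₗ[F] V} (h1 : ∀ i, g (u i) = g' (u i))
    (h2 : ∀ i, g (f i) = g' (f i)) : g = g' := by
  refine (h.b hB hV).ext ?_
  rintro (i | i)
  · rw [h.b_inl, h1]
  · rw [h.b_inr, h2]

/-- the block matrix -/
def blk (σ : F →+* F) (M : Matrix.SpecialLinearGroup (Fin 2) F) : Matrix (Fin 2 ⊕ Fin 2) (Fin 2 ⊕ Fin 2) F :=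
  Matrix.fromBlocks M.1 0 0 ((M⁻¹).1.transpose.map σ)

theorem blk_one : blk σ 1 = 1 := by
  unfold blk
  rw [inv_one, Matrix.SpecialLinearGroup.coe_one, Matrix.transpose_one, Matrix.map_one _ (map_zero _) (map_one _),
    Matrix.fromBlocks_one]

theorem blk_mul (M N : Matrix.SpecialLinearGroup (Fin 2) F) : blk σ (M * N) = blk σ M * blk σ N := by
  unfold blk
  rw [Matrix.fromBlocks_multiply, Matrix.SpecialLinearGroup.coe_mul, mul_inv_rev, Matrix.SpecialLinearGroup.coe_mul,
    Matrix.transpose_mul, Matrix.map_mul]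
  simp

theorem det_blk (M : Matrix.SpecialLinearGroup (Fin 2) F) : (blk σ M).det = 1 := by
  unfold blk
  rw [Matrix.det_fromBlocks_zero₂₁, M.2, one_mul]
  have h1 : ((M⁻¹).1.transpose.map σ).det = σ ((M⁻¹).1.transpose.det) := (RingHom.map_det σ _).symm
  rw [h1, Matrix.det_transpose, (M⁻¹).2, map_one]

/-- the monoid homomorphism -/
def blkHom (σ : F →+* F) : Matrix.SpecialLinearGroup (Fin 2) F →* Matrix (Fin 2 ⊕ Fin 2) (Fin 2 ⊕ Fin 2) F where
  toFun := blk σ
  map_one' := blk_one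
  map_mul' := blk_mul

/-- the Levi subgroup -/
noncomputable def Fr.lev (h : Fr B u f) (hB : HForm B) (hV : finrank F V = 4) :
    Matrix.SpecialLinearGroup (Fin 2) F →* (V ≃ₗ[F] V) :=
  (LinearMap.GeneralLinearGroup.generalLinearEquiv F V).toMonoidHom.comp
    (MonoidHom.toHomUnits (((Matrix.toLinAlgEquiv (h.b hB hV)).toAlgHom : _ →* (V →ₗ[F] V)).comp (blkHom σ)))

theorem Fr.lev_coe (h : Fr B u f) (hB : HForm B) (hV : finrank F V = 4) (M : Matrix.SpecialLinearGroup (Fin 2) F) :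
    ((h.lev hB hV M : V ≃ₗ[F] V) : V →ₗ[F] V) = Matrix.toLin (h.b hB hV) (h.b hB hV) (blk σ M) := rfl

theorem Fr.lev_u (h : Fr B u f) (hB : HForm B) (hV : finrank F V = 4) (M : Matrix.SpecialLinearGroup (Fin 2) F)
    (j : Fin 2) : h.lev hB hV M (u j) = M.1 0 j • u 0 + M.1 1 j • u 1 := by
  have h1 : h.lev hB hV M (u j) = Matrix.toLin (h.b hB hV) (h.b hB hV) (blk σ M) (h.b hB hV (Sum.inl j)) := by
    rw [h.b_inl]
    rfl
  rw [h1, Matrix.toLin_self, Fintype.sum_sum_type, Fin.sum_univ_two, Fin.sum_univ_two]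
  simp only [h.b_inl, h.b_inr, blk, Matrix.fromBlocks_apply₁₁, Matrix.fromBlocks_apply₂₁, Matrix.zero_apply, zero_smul,
    add_zero]

theorem Fr.lev_f (h : Fr B u f) (hB : HForm B) (hV : finrank F V = 4) (M : Matrix.SpecialLinearGroup (Fin 2) F)
    (j : Fin 2) : h.lev hB hV M (f j) = σ ((M⁻¹).1 j 0) • f 0 + σ ((M⁻¹).1 j 1) • f 1 := by
  have h1 : h.lev hB hV M (f j) = Matrix.toLin (h.b hB hV) (h.b hB hV) (blk σ M) (h.b hB hV (Sum.inr j)) := by
    rw [h.b_inr]
    rfl
  rw [h1, Matrix.toLin_self, Fintype.sum_sum_type, Fin.sum_univ_two, Fin.sum_univ_two]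
  simp only [h.b_inl, h.b_inr, blk, Matrix.fromBlocks_apply₁₂, Matrix.fromBlocks_apply₂₂, Matrix.zero_apply, zero_smul,
    zero_add, Matrix.map_apply, Matrix.transpose_apply]

theorem Fr.lev_det (h : Fr B u f) (hB : HForm B) (hV : finrank F V = 4) (M : Matrix.SpecialLinearGroup (Fin 2) F) :
    LinearMap.det ((h.lev hB hV M : V ≃ₗ[F] V) : V →ₗ[F] V) = 1 := by
  rw [h.lev_coe, LinearMap.det_toLin, det_blk]

/-- isometries are detected on the frame -/
theorem Fr.isom (h : Fr B u f) (hB : HForm B) (hV : finrank F V = 4) {g : V ≃ₗ[F] V}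
    (h1 : ∀ i j, B (g (u i)) (g (u j)) = 0) (h2 : ∀ i j, B (g (f i)) (g (f j)) = 0)
    (h3 : ∀ i j, B (g (u i)) (g (f j)) = if i = j then 1 else 0) (x y : V) : B (g x) (g y) = B x y := by
  let C : V →ₛₗ[σ] V →ₗ[F] F := (B.comp (g : V →ₗ[F] V)).compl₂ (g : V →ₗ[F] V)
  have hC : C = B := by
    refine LinearMap.ext_basis (h.b hB hV) (h.b hB hV) ?_
    rintro (i | i) (j | j)
    · rw [h.b_inl, h.b_inl, h.uu]
      exact h1 i j
    · rw [h.b_inl, h.b_inr, h.uf]
      exact h3 i j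
    · rw [h.b_inl, h.b_inr, h.fu hB]
      change B (g (f i)) (g (u j)) = _
      rw [sw hB (g (u j)), h3]
      by_cases e : i = j
      · rw [if_pos e, if_pos e.symm, map_one]
      · rw [if_neg e, if_neg (fun e' => e e'.symm), map_zero]
    · rw [h.b_inr, h.b_inr, h.ff]
      exact h2 i j
  exact congrArg (fun D : V →ₛₗ[σ] V →ₗ[F] F => D x y) hC

theorem Fr.lev_mem (h : Fr B u f) (hB : HForm B) (hV : finrank F V = 4) (M : Matrix.SpecialLinearGroup (Fin 2) F) :
    h.lev hB hV M ∈ SIso B := by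
  refine mem_SIso_of (h.isom hB hV (fun i j => ?_) (fun i j => ?_) fun i j => ?_) (h.lev_det hB hV M)
  · rw [h.lev_u, h.lev_u]
    simp only [map_add, LinearMap.add_apply, smul_left, smul_right, h.uu, mul_zero, add_zero]
  · rw [h.lev_f, h.lev_f]
    simp only [map_add, LinearMap.add_apply, smul_left, smul_right, h.ff, mul_zero, add_zero]
  · rw [h.lev_u, h.lev_f]
    have h1 : (M⁻¹).1 * M.1 = 1 := by
      rw [← Matrix.SpecialLinearGroup.coe_mul, inv_mul_cancel, Matrix.SpecialLinearGroup.coe_one]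
    have h2 := congrFun (congrFun h1 j) i
    rw [Matrix.mul_apply, Fin.sum_univ_two, Matrix.one_apply] at h2
    have h3 : B (M.1 0 i • u 0 + M.1 1 i • u 1) (σ ((M⁻¹).1 j 0) • f 0 + σ ((M⁻¹).1 j 1) • f 1) =
        σ ((M⁻¹).1 j 0 * M.1 0 i + (M⁻¹).1 j 1 * M.1 1 i) := by
      simp only [map_add, LinearMap.add_apply, smul_left, smul_right, h.uf, map_mul]
      simp
    rw [h3, h2]
    by_cases e : i = j
    · rw [if_pos e, if_pos e.symm, map_one]
    · rw [if_neg e, if_neg (fun e' => e e'.symm), map_zero]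

end Cfsg.Agent.H744.Pu4
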