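import Cfsg.Agent.H744.Pu4.Second
import Cfsg.Agent.H411.IFU.Cls

/-!
# S5719, `PSU₄(q)`, W4 (helper744 for helper838)
-/

set_option autoImplicit false

namespace Cfsg.Agent.H744.Pu4

open Module Subgroup Cfsg Cfsg.Agent.H91.U Cfsg.Agent.H450.UF Cfsg.Agent.H450.Bs Cfsg.Agent.H209.Fxy Cfsg.Agent.H838.IF

variable {F V : Type*} [Field F] [Fintype F] [AddCommGroup V] [Module F V] [FiniteDimensional F V] {σ : F →+* F}
  {B : V →ₛₗ[σ] V →ₗ[F] F} {H : Subgroup (V ≃ₗ[F] V)} {q : ℕ}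

/-- W4: the second type -/
theorem no_second (hB : HForm B) (hF : Fintype.card F = q ^ 2) (hV : finrank F V = 4) (hq : Odd q) (h5 : 5 ≤ q)
    (hH : Pk B H) (hC : StepC B H) {t : V ≃ₗ[F] V} (ht : t ∈ H) {m : F} (hm : m ^ (q + 1) = -1)
    (htt : ∀ v, t (t v) = (m * m) • v) : False :=
  no_second_of hB hF hV hq h5 hH hC ht hm htt fun hU hU' h2 h2' hc h1 h1' =>
    Cfsg.Agent.H411.IFU.cls_ti hB hF hV hU hU' h2 h2' hc h1 h1'

end Cfsg.Agent.H744.Pu4
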