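import Cfsg.Agent.H838.IF.Defs

/-!
# S5719, `PSU₄(q)`, W3d: transvections and two complementary totally isotropic planes (helper744 for helper838)
-/

set_option autoImplicit false
set_option linter.unusedSectionVars false
set_option linter.unusedVariables false

namespace Cfsg.Agent.H744.Pu4

open Module Subgroup Cfsg Cfsg.Agent.H91.U Cfsg.Agent.H450.UF Cfsg.Agent.H450.Bs Cfsg.Agent.H209.Fxy Cfsg.Agent.H838.IF

variable {F V : Type*} [Field F] [Fintype F] [AddCommGroup V] [Module F V] [FiniteDimensional F V] {σ : F →+* F}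
  {B : V →ₛₗ[σ] V →ₗ[F] F} {H : Subgroup (V ≃ₗ[F] V)} {q : ℕ}

/-- a nonzero vector of `U` is not orthogonal to `U'` -/
theorem exists_not_perp (hB : HForm B) {U U' : Submodule F V} (hU : TI B U) (hc : IsCompl U U') {x : V} (hx : x ∈ U)
    (h0 : x ≠ 0) : ∃ y ∈ U', B x y ≠ 0 := by
  by_contra hcon
  push Not at hcon
  apply h0
  apply hB.eq_zero
  intro v
  have hv : v ∈ U ⊔ U' := by
    rw [hc.sup_eq_top]
    trivial
  obtain ⟨a, ha, b, hb, rfl⟩ := Submodule.mem_sup.1 hv
  rw [map_add, hU x hx a ha, hcon b hb, add_zero]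

/-- W3d -/
theorem On.opp (hB : HForm B) (hF : Fintype.card F = q ^ 2) (hV : finrank F V = 4) (hH : H ≤ SIso B)
    {U U' : Submodule F V} (hU : TI B U) (hU' : TI B U') (h2 : finrank F U = 2) (h2' : finrank F U' = 2)
    (hc : IsCompl U U') (h : ∀ x ∈ U, ∀ y ∈ U', B x y ≠ 0 → On B H (Submodule.span F {x, y})) : On B H ⊤ := by
  intro c _ hc0 hcc
  have hcm : c ∈ U ⊔ U' := by
    rw [hc.sup_eq_top]
    trivial
  obtain ⟨x, hx, y, hy, rfl⟩ := Submodule.mem_sup.1 hcm
  have hsp : ∀ x y : V, x ∈ Submodule.span F {x, y} := fun x y => Submodule.subset_span (Set.mem_insert _ _)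
  have hsp' : ∀ x y : V, y ∈ Submodule.span F {x, y} := fun x y =>
    Submodule.subset_span (Set.mem_insert_of_mem _ rfl)
  by_cases hxy : B x y = 0
  · by_cases hy0 : y = 0
    · rw [hy0, add_zero] at hc0 hcc ⊢
      obtain ⟨y1, hy1, h1⟩ := exists_not_perp hB hU hc hx hc0
      exact h x hx y1 hy1 h1 x (hsp x y1) hc0 hcc
    by_cases hx0 : x = 0
    · rw [hx0, zero_add] at hc0 hcc ⊢
      obtain ⟨x1, hx1, h1⟩ := exists_not_perp hB hU' hc.symm hy hc0
      have h1' : B x1 y ≠ 0 := fun e => h1 (hB.swap_zero e)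
      exact h x1 hx1 y hy h1' y (hsp' x1 y) hc0 hcc
    -- the general case
    obtain ⟨z, hz, hxz⟩ := exists_not_perp hB hU hc hx hx0
    have hz0 : z ≠ 0 := by
      rintro rfl
      exact hxz (map_zero _)
    have hzz : B z z = 0 := hU' z hz z hz
    have hzx : B z x ≠ 0 := fun e => hxz (hB.swap_zero e)
    obtain ⟨l, hl0, hl⟩ := exists_trz hB
    obtain ⟨g, hg⟩ := exists_tv hzz l
    have hgH : g ∈ H := h x hx z hz hxz z (hsp' x z) hz0 hzz l hl g hg
    have hgi : ∀ v w, B (g v) (g w) = B v w := (hH hgH).2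
    have hgi' : ∀ v w, B (g⁻¹ v) (g⁻¹ w) = B v w := (hH (H.inv_mem hgH)).2
    have hgc : g (x + y) = x + ((l * B z x) • z + y) := by
      rw [hg, map_add, hU' z hz y hy, add_zero]
      abel
    have hw : (l * B z x) • z + y ∈ U' := U'.add_mem (U'.smul_mem _ hz) hy
    have hne : B x ((l * B z x) • z + y) ≠ 0 := by
      rw [map_add, hxy, add_zero, smul_right]
      exact mul_ne_zero (mul_ne_zero hl0 hzx) hxz
    have hP : PP B H (g (x + y)) := by
      rw [hgc]
      refine h x hx _ hw hne _ ?_ ?_ ?_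
      · exact Submodule.add_mem _ (hsp _ _) (hsp' _ _)
      · rw [← hgc]
        exact fun e => hc0 ((LinearEquiv.map_eq_zero_iff g).1 e)
      · rw [← hgc, hgi, hcc]
    have h3 := hP.map (H.inv_mem hgH) hgi'
    rwa [← LinearEquiv.mul_apply, inv_mul_cancel] at h3
  · exact h x hx y hy hxy _ (Submodule.add_mem _ (hsp x y) (hsp' x y)) hc0 hcc

end Cfsg.Agent.H744.Pu4
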