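import Cfsg.Agent.H744.Pu4.Lev

/-!
# S5719, `PSU₄(q)`, W4: no involutions of the second type (helper744 for helper838)
-/

set_option autoImplicit false
set_option linter.unusedSectionVars false
set_option linter.unusedVariables false

namespace Cfsg.Agent.H744.Pu4

open Module Subgroup Cfsg Cfsg.Agent.H91.U Cfsg.Agent.H450.UF Cfsg.Agent.H450.Bs Cfsg.Agent.H209.Fxy Cfsg.Agent.H838.IF

variable {F V : Type*} [Field F] [Fintype F] [AddCommGroup V] [Module F V] [FiniteDimensional F V] {σ : F →+* F}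
  {B : V →ₛₗ[σ] V →ₗ[F] F} {H : Subgroup (V ≃ₗ[F] V)} {q : ℕ} {u f : Fin 2 → V}

theorem two_ne (hF : Fintype.card F = q ^ 2) (hq : Odd q) : (2 : F) ≠ 0 := by
  intro h2
  have : CharP F 2 := CharTwo.of_one_ne_zero_of_two_eq_zero one_ne_zero h2
  obtain ⟨n, hn⟩ := FiniteField.card F 2
  have h1 : Odd (Fintype.card F) := by
    rw [hF]
    exact hq.pow
  rw [hn.2] at h1
  exact absurd h1 (Nat.not_odd_iff_even.2 ((even_iff_two_dvd).2 (dvd_pow_self 2 n.ne_zero)))

theorem Fr.u_ne (h : Fr B u f) (i : Fin 2) : u i ≠ 0 := by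
  intro e
  have h1 := h.uf i i
  rw [e, map_zero, LinearMap.zero_apply, if_pos rfl] at h1
  exact zero_ne_one h1

theorem Fr.f_ne (h : Fr B u f) (i : Fin 2) : f i ≠ 0 := by
  intro e
  have h1 := h.uf i i
  rw [e, map_zero, if_pos rfl] at h1
  exact zero_ne_one h1

/-- the centre of `SL(2, F)` acts as scalars -/
theorem Fr.lev_center (h : Fr B u f) (hB : HForm B) (hV : finrank F V = 4) {M : Matrix.SpecialLinearGroup (Fin 2) F}
    (hM : M ∈ center (Matrix.SpecialLinearGroup (Fin 2) F)) : Scal (h.lev hB hV M) := by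
  obtain ⟨r, hr, he⟩ := Matrix.SpecialLinearGroup.mem_center_iff.1 hM
  rw [Fintype.card_fin] at hr
  have hr' : r = 1 ∨ r = -1 := by
    have h1 : (r - 1) * (r + 1) = 0 := by linear_combination hr
    rcases mul_eq_zero.1 h1 with h2 | h2
    · exact Or.inl (sub_eq_zero.1 h2)
    · exact Or.inr (eq_neg_of_add_eq_zero_left h2)
  have hsr : σ r = r := by
    rcases hr' with rfl | rfl
    · rw [map_one]
    · rw [map_neg, map_one]
  have hMM : M * M = 1 := by
    apply Subtype.ext
    rw [Matrix.SpecialLinearGroup.coe_mul, ← he, ← map_mul, ← sq, hr, map_one, Matrix.SpecialLinearGroup.coe_one]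
  have hMi : M⁻¹ = M := inv_eq_of_mul_eq_one_left hMM
  refine ⟨r, fun v => ?_⟩
  have h1 : ((h.lev hB hV M : V ≃ₗ[F] V) : V →ₗ[F] V) = r • LinearMap.id := by
    refine h.ext hB hV (fun i => ?_) fun i => ?_
    · change h.lev hB hV M (u i) = r • u i
      rw [h.lev_u, ← he]
      fin_cases i <;> simp
    · change h.lev hB hV M (f i) = r • f i
      rw [h.lev_f, hMi, ← he]
      fin_cases i <;> simp [hsr]
  exact congrArg (fun g : V →ₗ[F] V => g v) h1

theorem num (h5 : 5 ≤ q) : ((q + 1) * (q ^ 3 + 1)) ^ 2 < (q ^ 2 + 1) ^ 5 := by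
  have h1 : (q + 1) ^ 2 ≤ 2 * (q ^ 2 + 1) := by nlinarith [sq_nonneg ((q : ℤ) - 1)]
  have h2 : (q ^ 3 + 1) ^ 2 ≤ (q ^ 2 + 1) ^ 3 := by
    have h3 : 2 * q ^ 3 ≤ 3 * q ^ 4 := by
      have : 1 * q ^ 3 ≤ q * q ^ 3 := Nat.mul_le_mul_right _ (by omega)
      nlinarith
    nlinarith
  calc ((q + 1) * (q ^ 3 + 1)) ^ 2 = (q + 1) ^ 2 * (q ^ 3 + 1) ^ 2 := mul_pow _ _ _
    _ ≤ (2 * (q ^ 2 + 1)) * (q ^ 2 + 1) ^ 3 := Nat.mul_le_mul h1 h2
    _ = 2 * (q ^ 2 + 1) ^ 4 := by ring
    _ < (q ^ 2 + 1) * (q ^ 2 + 1) ^ 4 := Nat.mul_lt_mul_of_pos_right (by nlinarith) (by positivity)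
    _ = (q ^ 2 + 1) ^ 5 := by ring

/-- the Levi subgroup is contained in `H` -/
theorem Fr.lev_le (h : Fr B u f) (hB : HForm B) (hF : Fintype.card F = q ^ 2) (hV : finrank F V = 4) (hq : Odd q)
    (h5 : 5 ≤ q) (hH : Pk B H) {t : V ≃ₗ[F] V} (ht : t ∈ H) {m : F} (hm0 : m ≠ 0) (htu : ∀ i, t (u i) = m • u i)
    (htf : ∀ i, t (f i) = -(m • f i)) (hcls : cls B t ≤ ((q + 1) * (q ^ 3 + 1)) ^ 2)
    (M : Matrix.SpecialLinearGroup (Fin 2) F) : h.lev hB hV M ∈ H := by
  have h2 := two_ne hF hq
  have hns : ¬ Scal t := by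
    rintro ⟨a, ha⟩
    have h3 : m = a := by
      have h4 := (htu 0).symm.trans (ha (u 0))
      have h6 : (m - a) • u 0 = 0 := by rw [sub_smul, h4, sub_self]
      exact sub_eq_zero.1 ((smul_eq_zero.1 h6).resolve_right (h.u_ne 0))
    have h4 : -m = a := by
      have h4 := (htf 0).symm.trans (ha (f 0))
      have h6 : (-m - a) • f 0 = 0 := by rw [sub_smul, ← h4, neg_smul, sub_self]
      exact sub_eq_zero.1 ((smul_eq_zero.1 h6).resolve_right (h.f_ne 0))
    apply hm0
    have h6 : 2 * m = 0 := by linear_combination h3 - h4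
    exact (mul_eq_zero.1 h6).resolve_left h2
  have hs : Scal (t * t) := by
    refine ⟨m * m, fun v => ?_⟩
    have h1 : ((t * t : V ≃ₗ[F] V) : V →ₗ[F] V) = (m * m) • LinearMap.id := by
      refine h.ext hB hV (fun i => ?_) fun i => ?_
      · change t (t (u i)) = (m * m) • u i
        rw [htu, map_smul, htu, smul_smul]
      · change t (t (f i)) = (m * m) • f i
        rw [htf, map_neg, map_smul, htf, smul_neg, neg_neg, smul_smul]
    exact congrArg (fun g : V →ₗ[F] V => g v) h1
  have hK : ∀ k ∈ (h.lev hB hV).range, Comm k t := by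
    rintro _ ⟨M, rfl⟩
    refine ⟨1, fun v => ?_⟩
    have h1 : ((h.lev hB hV M * t : V ≃ₗ[F] V) : V →ₗ[F] V) = ((t * h.lev hB hV M : V ≃ₗ[F] V) : V →ₗ[F] V) := by
      refine h.ext hB hV (fun i => ?_) fun i => ?_
      · change h.lev hB hV M (t (u i)) = t (h.lev hB hV M (u i))
        rw [htu, map_smul, h.lev_u, map_add, map_smul, map_smul, htu, htu, smul_add, smul_comm m, smul_comm m]
      · change h.lev hB hV M (t (f i)) = t (h.lev hB hV M (f i))
        rw [htf, map_neg, map_smul, h.lev_f, map_add, map_smul, map_smul, htf, htf, smul_add, smul_comm m, smul_comm m,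
          smul_neg, smul_neg, neg_add]
    rw [one_smul]
    exact congrArg (fun g : V →ₗ[F] V => g v) h1
  have he2 := hH.e2 t ht hns hs (h.lev hB hV).range (by
    rintro _ ⟨M, rfl⟩
    exact h.lev_mem hB hV M) hK
  rw [← Subgroup.index_comap] at he2
  have hlt : (H.comap (h.lev hB hV)).index < q ^ 2 + 1 := by
    by_contra hcon
    push Not at hcon
    have h1 := Nat.pow_le_pow_left hcon 5
    have h3 := num h5
    omega
  -- the image in `PSL(2, F)`
  have hcard : 25 ≤ q ^ 2 := by nlinarith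
  have htop : (H.comap (h.lev hB hV)).map
      (QuotientGroup.mk' (center (Matrix.SpecialLinearGroup (Fin 2) F))) = ⊤ := by
    by_contra hcon
    have h1 := (Cfsg.Agent.S0806.result (F := F) (q := q ^ 2) hF (by
      intro hmem
      simp only [Finset.mem_insert, Finset.mem_singleton] at hmem
      omega)).1 _ hcon
    have h3 := Nat.le_of_dvd (Nat.pos_of_ne_zero Subgroup.index_ne_zero_of_finite)
      ((H.comap (h.lev hB hV)).index_map_dvd
        (QuotientGroup.mk'_surjective (center (Matrix.SpecialLinearGroup (Fin 2) F))))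
    omega
  have hM : (QuotientGroup.mk' (center (Matrix.SpecialLinearGroup (Fin 2) F))) M ∈
      (H.comap (h.lev hB hV)).map (QuotientGroup.mk' (center (Matrix.SpecialLinearGroup (Fin 2) F))) := by
    rw [htop]
    trivial
  obtain ⟨N, hN, hNM⟩ := hM
  have h3 : N⁻¹ * M ∈ center (Matrix.SpecialLinearGroup (Fin 2) F) := QuotientGroup.eq.1 hNM
  have h4 := hH.sc _ (h.lev_mem hB hV (N⁻¹ * M)) (h.lev_center hB hV h3)
  have h6 : h.lev hB hV M = h.lev hB hV N * h.lev hB hV (N⁻¹ * M) := by
    rw [← map_mul, mul_inv_cancel_left]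
  rw [h6]
  exact H.mul_mem hN h4

/-- a frame contained in two given totally isotropic planes -/
theorem exists_fr (hB : HForm B) (hV : finrank F V = 4) {U U' : Submodule F V} (hU : TI B U) (hU' : TI B U')
    (h2 : finrank F U = 2) (h2' : finrank F U' = 2) (hc : IsCompl U U') {x y : V} (hx : x ∈ U) (hy : y ∈ U')
    (hxy : B x y ≠ 0) : ∃ u f : Fin 2 → V, Fr B u f ∧ (∀ i, u i ∈ U) ∧ (∀ i, f i ∈ U') ∧ u 0 = x ∧
      f 0 = (B x y)⁻¹ • y := by
  have hyx : B y x ≠ 0 := fun e => hxy (hB.swap_zero e)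
  -- a vector of `U` orthogonal to `y`
  have key : ∀ {W : Submodule F V} (z : V), finrank F W = 2 → ∃ w ∈ W, w ≠ 0 ∧ B z w = 0 := by
    intro W z hW
    have h1 := LinearMap.finrank_range_add_finrank_ker ((B z).comp W.subtype)
    have h3 : finrank F (LinearMap.range ((B z).comp W.subtype)) ≤ 1 :=
      (Submodule.finrank_le _).trans (by rw [finrank_self])
    have h4 : 0 < finrank F (LinearMap.ker ((B z).comp W.subtype)) := by omega
    have : Nontrivial (LinearMap.ker ((B z).comp W.subtype)) := Module.nontrivial_of_finrank_pos (R := F) h4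
    obtain ⟨w, hw⟩ := exists_ne (0 : LinearMap.ker ((B z).comp W.subtype))
    refine ⟨(w : W), (w : W).2, fun e => hw (Subtype.ext (Subtype.ext e)), ?_⟩
    exact LinearMap.mem_ker.1 w.2
  obtain ⟨a, ha, ha0, hya⟩ := key y h2
  obtain ⟨b, hb, hb0, hxb⟩ := key x h2'
  have hay := hB.swap_zero hya
  have hbx := hB.swap_zero hxb
  have hab : B a b ≠ 0 := by
    intro e
    -- `b` is orthogonal to `U'` and to `x`, `a`
    have hli : LinearIndependent F ![x, a] := by
      have hx0 : x ≠ 0 := by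
        rintro rfl
        rw [map_zero, LinearMap.zero_apply] at hxy
        exact hxy rfl
      rw [LinearIndependent.pair_iff]
      intro s r hsr
      have h3 := congrArg (B y) hsr
      rw [map_add, smul_right, smul_right, hya, mul_zero, add_zero, map_zero] at h3
      have hs : s = 0 := (mul_eq_zero.1 h3).resolve_right hyx
      rw [hs, zero_smul, zero_add] at hsr
      exact ⟨hs, (smul_eq_zero.1 hsr).resolve_right ha0⟩
    have hsp : Submodule.span F (Set.range ![x, a]) = U := by
      apply Submodule.eq_of_le_of_finrank_eq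
      · rw [Submodule.span_le]
        rintro _ ⟨i, rfl⟩
        fin_cases i
        · exact hx
        · exact ha
      · rw [finrank_span_eq_card hli, h2]
        rfl
    have hperp : ∀ z ∈ U, B b z = 0 := by
      intro z hz
      rw [← hsp] at hz
      have h3 : Submodule.span F (Set.range ![x, a]) ≤ LinearMap.ker (B b) := by
        rw [Submodule.span_le]
        rintro _ ⟨i, rfl⟩
        fin_cases i
        · exact hbx
        · exact hB.swap_zero e
      exact h3 hz
    obtain ⟨z, hz, hbz⟩ := exists_not_perp hB hU' hc.symm hb hb0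
    exact hbz (hperp z hz)
  have hab' : B b a ≠ 0 := fun e => hab (hB.swap_zero e)
  refine ⟨![x, a], ![(B x y)⁻¹ • y, (B a b)⁻¹ • b], ⟨?_, ?_, ?_⟩, ?_, ?_, rfl, rfl⟩
  · intro i j
    fin_cases i <;> fin_cases j
    · exact hU x hx x hx
    · exact hU x hx a ha
    · exact hU a ha x hx
    · exact hU a ha a ha
  · have h3 : (B x y)⁻¹ • y ∈ U' := U'.smul_mem _ hy
    have h4 : (B a b)⁻¹ • b ∈ U' := U'.smul_mem _ hb
    intro i j
    fin_cases i <;> fin_cases j
    · exact hU' _ h3 _ h3
    · exact hU' _ h3 _ h4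
    · exact hU' _ h4 _ h3
    · exact hU' _ h4 _ h4
  · intro i j
    fin_cases i <;> fin_cases j
    · change B x ((B x y)⁻¹ • y) = 1
      rw [smul_right, inv_mul_cancel₀ hxy]
    · change B x ((B a b)⁻¹ • b) = 0
      rw [smul_right, hxb, mul_zero]
    · change B a ((B x y)⁻¹ • y) = 0
      rw [smul_right, hay, mul_zero]
    · change B a ((B a b)⁻¹ • b) = 1
      rw [smul_right, inv_mul_cancel₀ hab]
  · intro i
    fin_cases i
    · exact hx
    · exact ha
  · intro i
    fin_cases i
    · exact U'.smul_mem _ hy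
    · exact U'.smul_mem _ hb

theorem np_span (hB : HForm B) {x y : V} (hxx : B x x = 0) (hyy : B y y = 0) (hxy : B x y ≠ 0) :
    NP B (Submodule.span F {x, y}) := by
  have hyx : B y x ≠ 0 := fun e => hxy (hB.swap_zero e)
  have hli := li_of_not_perp hxx hxy
  have hr : Set.range ![x, y] = {x, y} := by
    rw [Matrix.range_cons, Matrix.range_cons, Matrix.range_empty, Set.union_empty]
    rfl
  refine ⟨?_, ?_⟩
  · have h1 := finrank_span_eq_card hli
    rw [hr, Fintype.card_fin] at h1
    exact h1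
  · intro z hz h
    obtain ⟨a, b, rfl⟩ := Submodule.mem_span_pair.1 hz
    have h1 := h x (Submodule.subset_span (Set.mem_insert _ _))
    have h2 := h y (Submodule.subset_span (Set.mem_insert_of_mem _ rfl))
    rw [map_add, LinearMap.add_apply, smul_left, smul_left, hxx, mul_zero, zero_add, mul_eq_zero] at h1
    rw [map_add, LinearMap.add_apply, smul_left, smul_left, hyy, mul_zero, add_zero, mul_eq_zero] at h2
    have hb : b = 0 := (map_eq_zero σ).1 (h1.resolve_right hyx)
    have ha : a = 0 := (map_eq_zero σ).1 (h2.resolve_right hxy)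
    rw [ha, hb, zero_smul, zero_smul, add_zero]

/-- all transvections with centre in `<u 0, f 0>` are in `H` -/
theorem Fr.on (h : Fr B u f) (hB : HForm B) (hV : finrank F V = 4) (hH : Pk B H) (hC : StepC B H) {t : V ≃ₗ[F] V}
    (ht : t ∈ H) {m : F} (hm2 : m * m = -1) (hm : σ m * m = -1) (htu : ∀ i, t (u i) = m • u i)
    (htf : ∀ i, t (f i) = -(m • f i)) (hL : ∀ M, h.lev hB hV M ∈ H) : On B H (Submodule.span F {u 0, f 0}) := by
  have h01 : (0 : Fin 2) ≠ 1 := by decide
  let M : Matrix.SpecialLinearGroup (Fin 2) F := ⟨!![m, 0; 0, -m], by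
    rw [Matrix.det_fin_two_of]
    linear_combination -hm2⟩
  have hMi : (M⁻¹).1 = !![-m, 0; 0, m] := by
    rw [Matrix.SpecialLinearGroup.coe_inv]
    change (!![m, 0; 0, -m] : Matrix (Fin 2) (Fin 2) F).adjugate = _
    rw [Matrix.adjugate_fin_two_of, neg_zero]
  let N : Matrix.SpecialLinearGroup (Fin 2) F := ⟨!![0, -1; 1, 0], by
    rw [Matrix.det_fin_two_of]
    ring⟩
  have hNi : (N⁻¹).1 = !![0, 1; -1, 0] := by
    rw [Matrix.SpecialLinearGroup.coe_inv]
    change (!![0, -1; 1, 0] : Matrix (Fin 2) (Fin 2) F).adjugate = _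
    rw [Matrix.adjugate_fin_two_of, neg_neg]
  -- the involution
  have hg0 : h.lev hB hV M (u 0) = m • u 0 := by
    rw [h.lev_u]
    change m • u 0 + (0 : F) • u 1 = _
    rw [zero_smul, add_zero]
  have hg1 : h.lev hB hV M (u 1) = (-m) • u 1 := by
    rw [h.lev_u]
    change (0 : F) • u 0 + (-m) • u 1 = _
    rw [zero_smul, zero_add]
  have hg2 : h.lev hB hV M (f 0) = σ (-m) • f 0 := by
    rw [h.lev_f, hMi]
    change σ (-m) • f 0 + σ 0 • f 1 = _
    rw [map_zero, zero_smul, add_zero]
  have hg3 : h.lev hB hV M (f 1) = σ m • f 1 := by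
    rw [h.lev_f, hMi]
    change σ 0 • f 0 + σ m • f 1 = _
    rw [map_zero, zero_smul, zero_add]
  set P : Submodule F V := Submodule.span F {u 0, f 0} with hP
  have hNeg : Neg B (t * h.lev hB hV M) P := by
    refine ⟨fun x hx => ?_, fun x hx => ?_⟩
    · obtain ⟨a, b, rfl⟩ := Submodule.mem_span_pair.1 hx
      rw [LinearEquiv.mul_apply, map_add, map_smul, map_smul, hg0, hg2, map_add, map_smul, map_smul, map_smul,
        map_smul, htu, htf, smul_neg, smul_smul m m, hm2, smul_smul (σ (-m)) m, map_neg, neg_mul, hm]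
      module
    · have h1 : B x (u 0) = 0 := hx _ (Submodule.subset_span (Set.mem_insert _ _))
      have h2 : B x (f 0) = 0 := hx _ (Submodule.subset_span (Set.mem_insert_of_mem _ rfl))
      have h3 := (h.b hB hV).sum_repr x
      rw [Fintype.sum_sum_type, Fin.sum_univ_two, Fin.sum_univ_two, h.b_inl, h.b_inl, h.b_inr, h.b_inr] at h3
      set a := (h.b hB hV).repr x (Sum.inl 0)
      set b := (h.b hB hV).repr x (Sum.inl 1)
      set c := (h.b hB hV).repr x (Sum.inr 0)
      set d := (h.b hB hV).repr x (Sum.inr 1)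
      have ha : a = 0 := by
        have h4 := hB.swap_zero h2
        rw [← h3] at h4
        simp only [map_add, smul_right, h.fu hB, h.ff, mul_zero, add_zero, if_true, if_neg h01, mul_one] at h4
        exact h4
      have hc' : c = 0 := by
        have h4 := hB.swap_zero h1
        rw [← h3] at h4
        simp only [map_add, smul_right, h.uf, h.uu, mul_zero, add_zero, zero_add, if_true, if_neg h01, mul_one] at h4
        exact h4
      rw [ha, hc', zero_smul, zero_smul, zero_add, zero_add] at h3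
      rw [← h3, LinearEquiv.mul_apply, map_add, map_smul, map_smul, hg1, hg3, map_add, map_smul, map_smul, map_smul,
        map_smul, htu, htf, smul_neg, smul_smul (-m) m, neg_mul, hm2, neg_neg, one_smul, smul_smul (σ m) m, hm,
        neg_smul, neg_neg, one_smul]
  have hNP : NP B P := np_span hB (h.uu 0 0) (h.ff 0 0) (by rw [h.uf, if_pos rfl]; exact one_ne_zero)
  rcases hC P _ hNP hNeg (H.mul_mem ht (hL M)) with h1 | h1
  · exact h1
  · intro c hc hc0 hcc
    have hw0 : h.lev hB hV N (u 0) = u 1 := by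
      rw [h.lev_u]
      change (0 : F) • u 0 + (1 : F) • u 1 = _
      rw [zero_smul, zero_add, one_smul]
    have hw1 : h.lev hB hV N (f 0) = f 1 := by
      rw [h.lev_f, hNi]
      change σ 0 • f 0 + σ 1 • f 1 = _
      rw [map_zero, zero_smul, zero_add, map_one, one_smul]
    have hi : ∀ v w, B (h.lev hB hV N v) (h.lev hB hV N w) = B v w := (h.lev_mem hB hV N).2
    have hi' : ∀ v w, B ((h.lev hB hV N)⁻¹ v) ((h.lev hB hV N)⁻¹ w) = B v w :=
      ((SIso B).inv_mem (h.lev_mem hB hV N)).2
    have h2 : PP B H (h.lev hB hV N c) := by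
      refine h1 _ ?_ (fun e => hc0 ((LinearEquiv.map_eq_zero_iff _).1 e)) (by rw [hi, hcc])
      rw [hP, mem_pp_span]
      obtain ⟨a, b, rfl⟩ := Submodule.mem_span_pair.1 hc
      rintro z (rfl | rfl)
      · rw [map_add, map_smul, map_smul, hw0, hw1, map_add, LinearMap.add_apply, smul_left, smul_left, h.uu, h.fu hB,
          if_neg h01.symm, mul_zero, mul_zero, add_zero]
      · rw [map_add, map_smul, map_smul, hw0, hw1, map_add, LinearMap.add_apply, smul_left, smul_left, h.ff, h.uf,
          if_neg h01.symm, mul_zero, mul_zero, add_zero]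
    have h3 := h2.map (H.inv_mem (hL N)) hi'
    rwa [← LinearEquiv.mul_apply, inv_mul_cancel] at h3

/-- W4, with the bound W1c as a hypothesis -/
theorem no_second_of (hB : HForm B) (hF : Fintype.card F = q ^ 2) (hV : finrank F V = 4) (hq : Odd q) (h5 : 5 ≤ q)
    (hH : Pk B H) (hC : StepC B H) {t : V ≃ₗ[F] V} (ht : t ∈ H) {m : F} (hm : m ^ (q + 1) = -1)
    (htt : ∀ v, t (t v) = (m * m) • v)
    (hcls : ∀ {U U' : Submodule F V}, TI B U → TI B U' → finrank F U = 2 → finrank F U' = 2 → IsCompl U U' →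
      (∀ u ∈ U, t u = m • u) → (∀ u ∈ U', t u = (-m) • u) → cls B t ≤ ((q + 1) * (q ^ 3 + 1)) ^ 2) : False := by
  have h2 := two_ne hF hq
  have hm0 : m ≠ 0 := by
    rintro rfl
    rw [zero_pow (by omega)] at hm
    exact neg_ne_zero.2 one_ne_zero hm.symm
  have hsm : σ m * m = -1 := by
    rw [sig_eq hF hB.ne_id hB.invol, ← pow_succ, hm]
  have hi : ∀ v w, B (t v) (t w) = B v w := (hH.le ht).2
  have hTI : ∀ c : F, σ c * c = -1 → TI B (Module.End.eigenspace (t : V →ₗ[F] V) c) := by
    intro c hc x hx y hy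
    rw [Module.End.mem_eigenspace_iff] at hx hy
    have h3 := hi x y
    rw [show t x = c • x from hx, show t y = c • y from hy, smul_left, smul_right, ← mul_assoc, hc] at h3
    have h4 : 2 * B x y = 0 := by linear_combination -h3
    exact (mul_eq_zero.1 h4).resolve_left h2
  set U := Module.End.eigenspace (t : V →ₗ[F] V) m with hUd
  set U' := Module.End.eigenspace (t : V →ₗ[F] V) (-m) with hUd'
  have hU : TI B U := hTI m hsm
  have hU' : TI B U' := hTI (-m) (by rw [map_neg, neg_mul_neg, hsm])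
  have hmU : ∀ x ∈ U, t x = m • x := fun x hx => Module.End.mem_eigenspace_iff.1 hx
  have hmU' : ∀ x ∈ U', t x = (-m) • x := fun x hx => Module.End.mem_eigenspace_iff.1 hx
  have hc : IsCompl U U' := by
    refine ⟨?_, ?_⟩
    · rw [Submodule.disjoint_def]
      intro x hx hx'
      have h3 : (2 * m) • x = 0 := by
        have h4 := (hmU x hx).symm.trans (hmU' x hx')
        rw [two_mul, add_smul]
        nth_rewrite 1 [h4]
        rw [neg_smul, neg_add_cancel]
      exact (smul_eq_zero.1 h3).resolve_left (mul_ne_zero h2 hm0)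
    · rw [codisjoint_iff, eq_top_iff]
      intro x _
      have h3 : x = (2 : F)⁻¹ • (x + m⁻¹ • t x) + (2 : F)⁻¹ • (x - m⁻¹ • t x) := by
        rw [← smul_add, add_add_sub_cancel, ← two_smul F x, smul_smul, inv_mul_cancel₀ h2, one_smul]
      rw [h3]
      refine Submodule.add_mem_sup (U.smul_mem _ ?_) (U'.smul_mem _ ?_)
      · refine Module.End.mem_eigenspace_iff.2 ?_
        change t (x + m⁻¹ • t x) = m • (x + m⁻¹ • t x)
        rw [map_add, map_smul, htt, smul_smul, inv_mul_cancel_left₀ hm0, smul_add, smul_smul, mul_inv_cancel₀ hm0,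
          one_smul, add_comm]
      · refine Module.End.mem_eigenspace_iff.2 ?_
        change t (x - m⁻¹ • t x) = (-m) • (x - m⁻¹ • t x)
        rw [map_sub, map_smul, htt, smul_smul, inv_mul_cancel_left₀ hm0, smul_sub, smul_smul, neg_mul,
          mul_inv_cancel₀ hm0, neg_smul, neg_smul, one_smul]
        abel
  have hd := Submodule.finrank_add_eq_of_isCompl hc
  have hd1 := ti_two_mul_le hB hU
  have hd2 := ti_two_mul_le hB hU'
  rw [hV] at hd hd1 hd2
  have hdU : finrank F U = 2 := by omega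
  have hdU' : finrank F U' = 2 := by omega
  have hcl := hcls hU hU' hdU hdU' hc hmU hmU'
  have hfr : ∀ x ∈ U, ∀ y ∈ U', B x y ≠ 0 → ∃ u f : Fin 2 → V, Fr B u f ∧ (∀ i, t (u i) = m • u i) ∧
      (∀ i, t (f i) = -(m • f i)) ∧ u 0 = x ∧ f 0 = (B x y)⁻¹ • y := by
    intro x hx y hy hxy
    obtain ⟨u, f, h1, h3, h4, h5, h6⟩ := exists_fr hB hV hU hU' hdU hdU' hc hx hy hxy
    exact ⟨u, f, h1, fun i => hmU _ (h3 i), fun i => by rw [hmU' _ (h4 i), neg_smul], h5, h6⟩
  -- `m ^ 2 = -1`
  have hm2 : m * m = -1 := by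
    have : Nontrivial U := Module.nontrivial_of_finrank_pos (R := F) (by omega)
    obtain ⟨x, hx0⟩ := exists_ne (0 : U)
    obtain ⟨y, hy, hxy⟩ := exists_not_perp hB hU hc x.2 (fun e => hx0 (Subtype.ext e))
    obtain ⟨u, f, h, htu, htf, -, -⟩ := hfr x x.2 y hy hxy
    have h3 : (t : V →ₗ[F] V) = Matrix.toLin (h.b hB hV) (h.b hB hV)
        (Matrix.diagonal (Sum.elim (fun _ => m) (fun _ => -m))) := by
      refine (h.b hB hV).ext ?_
      intro i
      rw [Matrix.toLin_self, Finset.sum_eq_single i (fun j _ hj => by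
        rw [Matrix.diagonal_apply_ne _ hj, zero_smul]) (fun hi => absurd (Finset.mem_univ i) hi),
        Matrix.diagonal_apply_eq]
      rcases i with i | i
      · rw [h.b_inl]
        exact htu i
      · rw [h.b_inr]
        exact (htf i).trans (neg_smul _ _).symm
    have h4 : LinearMap.det (t : V →ₗ[F] V) = 1 := by
      rw [← LinearEquiv.coe_det, (hH.le ht).1, Units.val_one]
    rw [h3, LinearMap.det_toLin, Matrix.det_diagonal, Fintype.prod_sum_type, Fin.prod_univ_two,
      Fin.prod_univ_two] at h4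
    simp only [Sum.elim_inl, Sum.elim_inr] at h4
    have h6 : (m * m - 1) * (m * m + 1) = 0 := by linear_combination h4
    rcases mul_eq_zero.1 h6 with h7 | h7
    · exfalso
      obtain ⟨r, hr⟩ := hq
      have h8 : m ^ (q + 1) = (m * m) ^ (r + 1) := by
        rw [hr, ← sq, ← pow_mul]
        congr 1
      rw [sub_eq_zero.1 h7, one_pow, hm] at h8
      apply h2
      linear_combination -h8
    · exact eq_neg_of_add_eq_zero_left h7
  have hopp : On B H ⊤ := by
    refine On.opp hB hF hV hH.le hU hU' hdU hdU' hc fun x hx y hy hxy => ?_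
    obtain ⟨u, f, h, htu, htf, hu0, hf0⟩ := hfr x hx y hy hxy
    have h3 := h.on hB hV hH hC ht hm2 hsm htu htf (h.lev_le hB hF hV hq h5 hH ht hm0 htu htf hcl)
    have h4 : Submodule.span F {x, y} ≤ Submodule.span F {u 0, f 0} := by
      rw [Submodule.span_le]
      rintro z (rfl | rfl)
      · rw [hu0]
        exact Submodule.subset_span (Set.mem_insert _ _)
      · have h6 : z = (B x z) • f 0 := by
          rw [hf0, smul_smul, mul_inv_cancel₀ hxy, one_smul]
        rw [h6]
        exact Submodule.smul_mem _ _ (Submodule.subset_span (Set.mem_insert_of_mem _ rfl))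
    exact fun c hc' => h3 c (h4 hc')
  exact hH.ne (gen hB (by omega) fun c hc0 hcc => hopp c trivial hc0 hcc)

end Cfsg.Agent.H744.Pu4
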